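import Cfsg.Agent.H50.RG.LStmts

/-!
# S5714, RG-L11: at most two good subspaces (helper811)
-/

set_option autoImplicit false

namespace Cfsg.Agent.H811.RG

open Module Cfsg.Agent.H847.Bs Cfsg.Agent.H50.RG
open Cfsg.Agent.H440.Bs (perp mem_perp mem_perp' rker mem_rker lin lin_apply)

section

variable {F V : Type} [Field F] [AddCommGroup V] [Module F V] {Φ : Frm F V}

theorem inv_inf {y : V ≃ₗ[F] V} {A A' : Submodule F V} (h : Inv y A) (h' : Inv y A') : Inv y (A ⊓ A') :=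
  fun v hv => ⟨h v hv.1, h' v hv.2⟩

theorem inv_sup {y : V ≃ₗ[F] V} {A A' : Submodule F V} (h : Inv y A) (h' : Inv y A') : Inv y (A ⊔ A') := by
  intro v hv
  obtain ⟨a, ha, b, hb, rfl⟩ := Submodule.mem_sup.1 hv
  rw [map_add]
  exact Submodule.add_mem_sup (h a ha) (h' b hb)

/-- an injective endomorphism of a finite dimensional subspace is surjective -/
theorem exists_pre [Module.Finite F V] {y : V ≃ₗ[F] V} {A : Submodule F V} (h : Inv y A) {v : V} (hv : v ∈ A) :
    ∃ w ∈ A, y w = v := by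
  have hi : Function.Injective ((y : V →ₗ[F] V).restrict h) := by
    intro a b hab
    exact Subtype.ext (y.injective (congrArg Subtype.val hab))
  obtain ⟨w, hw⟩ := (LinearMap.injective_iff_surjective.1 hi) ⟨v, hv⟩
  exact ⟨w, w.2, congrArg Subtype.val hw⟩

theorem inv_perp [Module.Finite F V] {y : V ≃ₗ[F] V} (hy : y ∈ Φ.Iso) {A : Submodule F V} (h : Inv y A) :
    Inv y (perp Φ A) := by
  intro v hv x hx
  obtain ⟨w, hw, rfl⟩ := exists_pre h hx
  rw [hy.1]
  exact hv w hw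

theorem inf_eq_bot {y : V ≃ₗ[F] V} {A A' : Submodule F V} (h : Irr y A) (h' : Irr y A') (hne : A ≠ A') :
    A ⊓ A' = ⊥ := by
  rcases h.min _ inf_le_left (inv_inf h.inv h'.inv) with h1 | h1
  · exact h1
  · have h2 : A ≤ A' := by rw [← h1]; exact inf_le_right
    rcases h'.min _ h2 h.inv with h3 | h3
    · exact absurd h3 h.ne_bot
    · exact absurd h3 hne

/-- different good subspaces are not orthogonal -/
theorem not_orth [Module.Finite F V] {y : V ≃ₗ[F] V} {e M : ℕ} {A A' : Submodule F V} (hA : Gd Φ.TI e M y A)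
    (hA' : Gd Φ.TI e M y A') (hne : A ≠ A') : ¬ Φ.Orth A A' := by
  intro ho
  have hi := inf_eq_bot hA.irr hA'.irr hne
  refine hA.no (A ⊔ A') ?_ (inv_sup hA.irr.inv hA'.irr.inv) ?_ ?_ ?_
  · constructor
    · intro x hx z hz
      obtain ⟨a, ha, b, hb, rfl⟩ := Submodule.mem_sup.1 hx
      obtain ⟨c, hc, d, hd, rfl⟩ := Submodule.mem_sup.1 hz
      rw [Φ.add_left, Φ.add_right, Φ.add_right, hA.ts.1 a ha c hc, ho a ha d hd, Φ.refl _ _ (ho c hc b hb),
        hA'.ts.1 b hb d hd]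
      simp
    · intro x hx
      obtain ⟨a, ha, b, hb, rfl⟩ := Submodule.mem_sup.1 hx
      rw [Φ.q_add _ _ (ho a ha b hb), hA.ts.2 a ha, hA'.ts.2 b hb, add_zero]
  · refine lt_of_le_of_ne le_sup_left fun h => ?_
    have h2 : A' ≤ A := by rw [h]; exact le_sup_right
    rw [inf_eq_right.2 h2] at hi
    exact hA'.irr.ne_bot hi
  · intro C hC h1 h2
    rcases hA'.irr.min (C ⊓ A') inf_le_right (inv_inf hC hA'.irr.inv) with h3 | h3
    · left
      have h4 : (A ⊔ A') ⊓ C = A ⊔ A' ⊓ C := sup_inf_assoc_of_le A' h1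
      rw [inf_eq_right.2 h2, inf_comm A' C, h3, sup_bot_eq] at h4
      exact h4
    · right
      exact le_antisymm h2 (sup_le h1 (inf_eq_right.1 h3))
  · have h1 := Submodule.finrank_sup_add_finrank_inf_eq A A'
    rw [hi, finrank_bot, add_zero, hA.dim, hA'.dim] at h1
    rw [h1]
    exact ⟨2, by ring⟩

/-- the pairing of two different good subspaces is nondegenerate -/
theorem nondeg [Module.Finite F V] {y : V ≃ₗ[F] V} (hy : y ∈ Φ.Iso) {e M : ℕ} {A A' : Submodule F V}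
    (hA : Gd Φ.TI e M y A) (hA' : Gd Φ.TI e M y A') (hne : A ≠ A') {x : V} (hx : x ∈ A)
    (h : ∀ z ∈ A', Φ.B x z = 0) : x = 0 := by
  rcases hA.irr.min (A ⊓ perp Φ A') inf_le_left (inv_inf hA.irr.inv (inv_perp hy hA'.irr.inv)) with h1 | h1
  · have h2 : x ∈ A ⊓ perp Φ A' := ⟨hx, h⟩
    rw [h1, Submodule.mem_bot] at h2
    exact h2
  · refine absurd (fun a ha b hb => ?_) (not_orth hA hA' hne)
    have h2 : a ∈ A ⊓ perp Φ A' := by rw [h1]; exact ha
    exact h2.2 b hb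

theorem span_basis {Y : Submodule F V} {ι : Type*} (c : Basis ι F Y) (x : V) (h : ∀ i, Φ.B x (c i) = 0) :
    ∀ y ∈ Y, Φ.B x y = 0 := by
  intro y hy
  have h1 : (⟨y, hy⟩ : Y) ∈ Submodule.span F (Set.range c) := by rw [c.span_eq]; trivial
  have h2 : Submodule.span F (Set.range c) ≤ (rker Φ x).comap Y.subtype := by
    rw [Submodule.span_le]
    rintro _ ⟨i, rfl⟩
    exact h i
  exact h2 h1

theorem neg_left (x z : V) : Φ.B (-x) z = - Φ.B x z := by
  have h := Φ.smul_left (-1) x z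
  rwa [neg_one_smul, neg_one_mul] at h

theorem sub_left (x w z : V) : Φ.B (x - w) z = Φ.B x z - Φ.B w z := by
  rw [sub_eq_add_neg, Φ.add_left, neg_left, sub_eq_add_neg]

/-- the coordinates given by the pairing -/
theorem exists_coord [Module.Finite F V] {y : V ≃ₗ[F] V} (hy : y ∈ Φ.Iso) {e M : ℕ} {A A' : Submodule F V}
    (hA : Gd Φ.TI e M y A) (hA' : Gd Φ.TI e M y A') (hne : A ≠ A') (b : Basis (Fin e) F A') :
    ∃ T : A ≃ₗ[F] (Fin e → F), ∀ a i, T a i = Φ.B a (b i) := by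
  let T : A →ₗ[F] (Fin e → F) := (LinearMap.pi fun i => lin Φ (b i : V)) ∘ₗ A.subtype
  have hT : ∀ a i, T a i = Φ.B a (b i) := fun a i => rfl
  have hi : Function.Injective T := by
    rw [← LinearMap.ker_eq_bot, LinearMap.ker_eq_bot']
    intro a ha
    exact Subtype.ext (nondeg hy hA hA' hne a.2 (span_basis b _ fun i => by rw [← hT, ha]; rfl))
  have hd : finrank F A = finrank F (Fin e → F) := by rw [hA.dim, finrank_fintype_fun_eq_card, Fintype.card_fin]
  exact ⟨LinearEquiv.ofInjectiveOfFinrankEq T hi hd, fun a i => hT a i⟩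

/-- three different good subspaces: a `y`-isomorphism -/
theorem exists_phi [Module.Finite F V] {y : V ≃ₗ[F] V} (hy : y ∈ Φ.Iso) {e M : ℕ} {A A' A'' : Submodule F V}
    (hA : Gd Φ.TI e M y A) (hA' : Gd Φ.TI e M y A') (hA'' : Gd Φ.TI e M y A'') (hne : A ≠ A') (hne' : A'' ≠ A') :
    ∃ φ : A ≃ₗ[F] A'', ∀ a : A, (φ ⟨y a, hA.irr.inv a a.2⟩ : V) = y (φ a) := by
  have hfin : Module.Finite F A' := inferInstance
  let b : Basis (Fin e) F A' := (Module.finBasis F A').reindex (finCongr hA'.dim)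
  obtain ⟨T, hT⟩ := exists_coord hy hA hA' hne b
  obtain ⟨T', hT'⟩ := exists_coord hy hA'' hA' hne' b
  have h1 : ∀ a : A, ∀ z ∈ A', Φ.B (T'.symm (T a) : A'') z = Φ.B a z := by
    intro a z hz
    have h2 : ∀ z ∈ A', Φ.B ((T'.symm (T a) : A'') - (a : V)) z = 0 := span_basis b _ fun i => by
      rw [sub_left, ← hT', T'.apply_symm_apply, hT, sub_self]
    have h3 := h2 z hz
    rwa [sub_left, sub_eq_zero] at h3
  refine ⟨T ≪≫ₗ T'.symm, fun a => ?_⟩
  rw [← sub_eq_zero]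
  refine nondeg hy hA'' hA' hne' (A''.sub_mem (Subtype.prop _) (hA''.irr.inv _ (Subtype.prop _))) fun z hz => ?_
  obtain ⟨w, hw, rfl⟩ := exists_pre hA'.irr.inv hz
  rw [sub_left, hy.1]
  change Φ.B (T'.symm (T ⟨y a, hA.irr.inv a a.2⟩) : A'') (y w) - Φ.B (T'.symm (T a) : A'') w = 0
  rw [h1 _ _ (hA'.irr.inv w hw), h1 _ _ hw, hy.1, sub_self]

theorem irr_restrict {y : V ≃ₗ[F] V} {A : Submodule F V} (h : Irr y A) (z : A ≃ₗ[F] A)
    (hz : ∀ a : A, (z a : V) = y a) : Irr z ⊤ := by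
  refine ⟨fun v _ => trivial, fun h1 => h.ne_bot ?_, fun Y _ hY => ?_⟩
  · rw [eq_bot_iff]
    intro a ha
    have h2 : (⟨a, ha⟩ : A) ∈ (⊤ : Submodule F A) := trivial
    rw [h1, Submodule.mem_bot] at h2
    rw [Submodule.mem_bot]
    exact congrArg Subtype.val h2
  · have h3 : Inv y (Y.map A.subtype) := by
      rintro _ ⟨a, ha, rfl⟩
      refine ⟨z a, hY a ha, hz a⟩
    rcases h.min _ (Submodule.map_subtype_le A Y) h3 with h4 | h4
    · left
      rw [eq_bot_iff]
      intro a ha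
      have h5 : (a : V) ∈ Y.map A.subtype := ⟨a, ha, rfl⟩
      rw [h4, Submodule.mem_bot] at h5
      rw [Submodule.mem_bot]
      exact Subtype.ext h5
    · right
      rw [eq_top_iff]
      intro a _
      have h5 : (a : V) ∈ Y.map A.subtype := by rw [h4]; exact a.2
      obtain ⟨b, hb, hab⟩ := h5
      have h6 : b = a := Subtype.ext hab
      rwa [h6] at hb

end

theorem l11 (h10 : L10) : L11 := by
  intro F V _ _ _ _ _ Φ e M hC hM y hy s hs
  by_contra hcon
  obtain ⟨A, A', A'', h1, h2, h3, h12, h13, h23⟩ := Finset.two_lt_card_iff.1 (not_le.1 hcon)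
  have g1 := hs A h1
  have g2 := hs A' h2
  have g3 := hs A'' h3
  obtain ⟨φ, hφ⟩ := exists_phi hy g1 g2 g3 h12 h23.symm
  -- the restriction of `y`
  have hi : Function.Injective ((y : V →ₗ[F] V).restrict g1.irr.inv) := by
    intro a b hab
    exact Subtype.ext (y.injective (congrArg Subtype.val hab))
  let z : A ≃ₗ[F] A := LinearEquiv.ofInjectiveEndo _ hi
  have hz : ∀ a : A, (z a : V) = y a := fun a => rfl
  have hzk : ∀ (k : ℕ) (a : A), ((z ^ k) a : V) = (y ^ k) a := by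
    intro k
    induction k with
    | zero => intro a; rfl
    | succ k ih =>
      intro a
      have e1 : (z ^ (k + 1)) a = (z ^ k) (z a) := by rw [pow_succ]; rfl
      have e2 : (y ^ (k + 1)) (a : V) = (y ^ k) (y a) := by rw [pow_succ]; rfl
      rw [e1, e2, ih, hz]
  obtain ⟨m, hm, hmr, hmk⟩ := g1.big
  have hmz : m ∣ orderOf z := by
    refine hmk _ fun a ha => ?_
    have h4 := hzk (orderOf z) ⟨a, ha⟩
    rw [pow_orderOf_eq_one] at h4
    exact h4.symm
  obtain ⟨r, hr, hrm⟩ := Nat.exists_prime_and_dvd (n := m) (by omega)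
  refine not_orth g1 g3 h13 fun a ha b hb => ?_
  have h5 := h10 F A e r z hC.2.1 (irr_restrict g1.irr z hz) hr (hrm.trans hmz) (hmr r hr hrm) Φ.s ?_
    (fun a b => Φ.B a (φ b)) (fun x y w => Φ.add_left _ _ _) (fun x y w => ?_) (fun a x y => Φ.smul_left _ _ _)
    (fun a x y => ?_) (fun x w => ?_) ⟨a, ha⟩ (φ.symm ⟨b, hb⟩)
  · simpa using h5
  · rcases hC.2.2 with ⟨h, ho⟩ | ⟨t, h, ho⟩ | ⟨Q, h, ho⟩
    · exact Or.inl ⟨h.s, ho⟩
    · exact Or.inr ⟨⟨t, h.card, h.s⟩, ho⟩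
    · refine Or.inl ⟨fun a => ?_, ho⟩
      rw [h]
      rfl
  · change Φ.B x (φ (y + w) : A'') = _
    rw [map_add]
    exact Φ.add_right _ _ _
  · change Φ.B x (φ (a • y) : A'') = _
    rw [map_smul]
    exact Φ.smul_right _ _ _
  · change Φ.B (z x) (φ (z w) : A'') = Φ.B x (φ w)
    have h6 : z w = ⟨y w, g1.irr.inv w w.2⟩ := rfl
    rw [h6, hφ, hz, hy.1]

end Cfsg.Agent.H811.RG
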